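import Cfsg.Agent.Lib.Helper26.GL42.Api
import Cfsg.Agent.Lib.Helper1.MinimalNormal
import Cfsg.Prelude.Def_Solvable

set_option autoImplicit false

namespace Cfsg.Agent.Lib.Helper70.GL42

open MulAction Cfsg.Agent.Lib.Helper26.GL42

/-- [A] -/
theorem nsn_of_cores {H : Type*} [Group H] [Finite H] (hO : Cfsg.pPrimeCore 2 H = ⊥)
    (hO2 : Cfsg.pCore 2 H = ⊥) : NSN H := by
  intro N hN hs
  by_contra hne
  obtain ⟨M, hMn, hM0, hMN, hmin⟩ := Cfsg.Agent.Lib.Helper1.exists_minimal_normal_le hN hne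
  have hsM : Group.IsSolvable M :=
    Group.isSolvable_of_isSolvable_injective (f := Subgroup.inclusion hMN)
      (Subgroup.inclusion_injective _)
  obtain ⟨-, p, hp, hpow⟩ :=
    Cfsg.Agent.Lib.Helper1.minimal_normal_elementary_abelian M hsM hM0 hmin
  have hpg : IsPGroup p M := Cfsg.Agent.Lib.Helper1.isPGroup_of_forall_pow_eq_one hpow
  apply hM0
  rw [eq_bot_iff]
  by_cases h2 : p = 2
  · subst h2
    rw [← hO2]
    exact le_sSup ⟨hMn, hpg⟩
  · rw [← hO]
    refine le_sSup ⟨hMn, ?_⟩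
    have := Fact.mk hp
    obtain ⟨k, hk⟩ := IsPGroup.iff_card.1 hpg
    rw [hk]
    exact Nat.Coprime.pow_left _ ((Nat.coprime_primes hp Nat.prime_two).2 h2)

end Cfsg.Agent.Lib.Helper70.GL42
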