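import Cfsg.Agent.Lib.Helper70.GL42.K56
import Cfsg.Agent.Lib.Helper41.GL42.S57

set_option autoImplicit false

namespace Cfsg.Agent.Lib.Helper70.GL42

open MulAction Cfsg.Agent.Lib.Helper26.GL42

/-- [K56] -/
theorem case56 {Ω : Type*} [Fintype Ω] [DecidableEq Ω]
    (hΩ : Fintype.card Ω = 5 ∨ Fintype.card Ω = 6) (K : Subgroup (Equiv.Perm Ω))
    (hns : ¬ Group.IsSolvable K) (hN : NSN K) : Concl K :=
  case56_aux hΩ K hns hN
    (fun K' h => Cfsg.Agent.Lib.Helper41.GL42.card_of_not_solvable_56 hΩ K' h)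

/-- [K8] -/
theorem case8 {Ω : Type*} [Fintype Ω] [DecidableEq Ω]
    (hΩ : Fintype.card Ω = 8) (K : Subgroup (Equiv.Perm Ω)) (hA : K ≤ alternatingGroup Ω)
    [IsPreprimitive K Ω] (hns : ¬ Group.IsSolvable K) (hN : NSN K) (h : Nat.card K ≠ 1344) :
    Concl K :=
  case8_aux hΩ K hA hN h
    (fun h5 h8 => Cfsg.Agent.Lib.Helper41.GL42.card_of_not_solvable_8 hΩ K hA hns h5 h8)

end Cfsg.Agent.Lib.Helper70.GL42
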