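import Cfsg.Agent.Lib.Helper70.GL42.P

set_option autoImplicit false

namespace Cfsg.Agent.Lib.Helper70.GL42

open MulAction Cfsg.Agent.Lib.Helper26.GL42
open scoped Pointwise

/-- [R2] -/
theorem perfect_index {T : Type*} [Group T] (hT : commutator T = ⊤) (L : Subgroup T)
    (h0 : L.index ≠ 0) (h : L.index ≤ 4) : L = ⊤ := by
  have hfin : Finite (T ⧸ L) := by
    have : L.FiniteIndex := ⟨h0⟩
    infer_instance
  have hs : Group.IsSolvable (Equiv.Perm (T ⧸ L)) := perm_isSolvable_of_card_le_four _ h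
  have h1 := perfect_hom_trivial (⊤ : Subgroup T) hT (MulAction.toPermHom T (T ⧸ L))
  rw [eq_top_iff]
  intro t _
  have h2 := h1 t (Subgroup.mem_top t)
  have h3 : t • ((1 : T) : T ⧸ L) = ((1 : T) : T ⧸ L) := by
    have := congrArg (fun σ : Equiv.Perm (T ⧸ L) => σ ((1 : T) : T ⧸ L)) h2
    simpa using this
  rw [MulAction.Quotient.smul_coe, smul_eq_mul, mul_one, QuotientGroup.eq] at h3
  simpa using h3

/-- [R3] -/
theorem perfect_primitive {T Ω : Type*} [Group T] [MulAction T Ω] [Finite Ω]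
    (hT : commutator T = ⊤) [IsPretransitive T Ω] (hΩ : Nat.card Ω ≤ 8) : IsPreprimitive T Ω := by
  refine ⟨fun {B} hB => ?_⟩
  by_cases hsub : B.Subsingleton
  · exact Or.inl hsub
  right
  have hne : B.Nonempty := by
    rw [Set.nonempty_iff_ne_empty]
    rintro rfl
    exact hsub Set.subsingleton_empty
  have h2 : 2 ≤ B.ncard := by
    rw [Set.not_subsingleton_iff] at hsub
    exact (Set.one_lt_ncard (Set.toFinite B)).2 (by
      obtain ⟨a, ha, b, hb, hab⟩ := hsub
      exact ⟨a, ha, b, hb, hab⟩)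
  have h3 := hB.ncard_block_mul_ncard_orbit_eq hne
  have h4 : (orbit T B).ncard ≤ 4 := by
    by_contra hcon
    push Not at hcon
    nlinarith
  have h5 : (stabilizer T B).index = (orbit T B).ncard := MulAction.index_stabilizer T B
  have h6 : (orbit T B).ncard ≠ 0 := by
    intro h0
    rw [h0, mul_zero] at h3
    obtain ⟨a, _⟩ := hne
    have : Nonempty Ω := ⟨a⟩
    exact (Nat.card_pos (α := Ω)).ne h3
  have h7 : stabilizer T B = ⊤ := perfect_index hT _ (by rw [h5]; exact h6) (by rw [h5]; exact h4)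
  rw [Set.eq_univ_iff_forall]
  intro x
  obtain ⟨a, ha⟩ := hne
  obtain ⟨g, rfl⟩ := exists_smul_eq T a x
  have hg : g ∈ stabilizer T B := by rw [h7]; exact Subgroup.mem_top g
  rw [mem_stabilizer_iff] at hg
  rw [← hg]
  exact Set.smul_mem_smul_set ha

end Cfsg.Agent.Lib.Helper70.GL42
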