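import Cfsg.Agent.Lib.Helper26.GL42.Api
import Cfsg.Agent.S0495
import Cfsg.Agent.S0255

set_option autoImplicit false

namespace Cfsg.Agent.Lib.Helper70.GL42

open MulAction Cfsg.Agent.Lib.Helper26.GL42

theorem center_sl3_two :
    Subgroup.center (Matrix.SpecialLinearGroup (Fin 3) (ZMod 2)) = ⊥ := by
  rw [eq_bot_iff]
  intro A hA
  rw [Matrix.SpecialLinearGroup.mem_center_iff] at hA
  obtain ⟨r, hr, hA⟩ := hA
  have hr1 : r = 1 := by
    have h2 : ∀ r : ZMod 2, r ^ Fintype.card (Fin 3) = 1 → r = 1 := by decide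
    exact h2 r hr
  rw [Subgroup.mem_bot]
  apply Subtype.ext
  rw [← hA, hr1]
  simp

theorem toGL_bijective_two (n : ℕ) :
    Function.Bijective (Matrix.SpecialLinearGroup.toGL :
      Matrix.SpecialLinearGroup (Fin n) (ZMod 2) →* GL (Fin n) (ZMod 2)) := by
  constructor
  · intro a b hab
    apply Subtype.ext
    exact congrArg (fun g : GL (Fin n) (ZMod 2) => (g : Matrix (Fin n) (Fin n) (ZMod 2))) hab
  · intro g
    have hdet : (g : Matrix (Fin n) (Fin n) (ZMod 2)).det = 1 := by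
      have h1 : IsUnit (g : Matrix (Fin n) (Fin n) (ZMod 2)).det :=
        (Matrix.isUnit_iff_isUnit_det _).1 g.isUnit
      have h2 : ∀ x : ZMod 2, IsUnit x → x = 1 := by decide
      exact h2 _ h1
    refine ⟨⟨g, hdet⟩, ?_⟩
    apply Units.ext
    rfl

/-- [G3] -/
theorem simple168 {X : Type*} [Group X] [Finite X] [IsSimpleGroup X] (hc : Nat.card X = 168) :
    Nonempty (X ≃* GL (Fin 3) (ZMod 2)) := by
  have : Fact (Nat.Prime 7) := ⟨by norm_num⟩
  obtain ⟨e1⟩ := Cfsg.Agent.S0495.result (G := X) hc (F := ZMod 7) (ZMod.card 7)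
  obtain ⟨e2⟩ := Cfsg.Agent.S0255.result (F := ZMod 7) (K := ZMod 2) (ZMod.card 7) (ZMod.card 2)
  let e3 : Matrix.ProjectiveSpecialLinearGroup (Fin 3) (ZMod 2) ≃*
      Matrix.SpecialLinearGroup (Fin 3) (ZMod 2) :=
    (QuotientGroup.quotientMulEquivOfEq center_sl3_two).trans QuotientGroup.quotientBot
  exact ⟨((e1.trans e2).trans e3).trans (MulEquiv.ofBijective _ (toGL_bijective_two 3))⟩

end Cfsg.Agent.Lib.Helper70.GL42
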