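import Cfsg.Agent.Lib.Helper26.GL42.Api
import Cfsg.Agent.S2119

set_option autoImplicit false

namespace Cfsg.Agent.Lib.Helper70.GL42

open MulAction Cfsg.Agent.Lib.Helper26.GL42

/-- [L60] -/
theorem l60 {X : Type*} [Group X] [Finite X] (hc : Nat.card X = 120) (hN : NSN X)
    (N : Subgroup X) [N.Normal] (e : N ≃* alternatingGroup (Fin 5)) :
    Nonempty (X ≃* Equiv.Perm (Fin 5)) := by
  obtain ⟨C, hC⟩ : ∃ C, C = (MulAut.conjNormal : X →* MulAut N).ker := ⟨_, rfl⟩
  have hCn : C.Normal := by rw [hC]; infer_instance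
  have hCcomm : ∀ a ∈ C, ∀ b ∈ N, a * b = b * a := by
    intro a ha b hb
    rw [hC, MonoidHom.mem_ker] at ha
    have h1 := congrArg (fun φ : MulAut N => ((φ ⟨b, hb⟩ : N) : X)) ha
    simp only [MulAut.conjNormal_apply, MulAut.one_apply] at h1
    exact mul_inv_eq_iff_eq_mul.1 h1
  have hCN : C ⊓ N = ⊥ := by
    apply hN _ inferInstance
    apply Group.isSolvable_of_comm
    intro a b
    apply Subtype.ext
    exact hCcomm a a.2.1 b b.2.2
  have hcN : Nat.card N = 60 := by
    rw [Nat.card_congr e.toEquiv, Nat.card_eq_fintype_card]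
    have h1 := two_mul_card_alternatingGroup (α := Fin 5)
    rw [Fintype.card_perm, Fintype.card_fin] at h1
    have : (5 : ℕ).factorial = 120 := rfl
    omega
  have hidx : Nat.card (X ⧸ N) = 2 := by
    have h1 := N.card_mul_index
    rw [hcN, hc, Subgroup.index_eq_card] at h1
    omega
  have hCbot : C = ⊥ := by
    apply hN C hCn
    have : Fact (Nat.Prime 2) := ⟨Nat.prime_two⟩
    have hcyc : IsCyclic (X ⧸ N) := isCyclic_of_prime_card hidx
    have hs : Group.IsSolvable (X ⧸ N) :=
      Group.isSolvable_of_comm (fun a b => hcyc.commGroup.mul_comm a b)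
    refine Group.isSolvable_of_isSolvable_injective
      (f := (QuotientGroup.mk' N).comp C.subtype) ?_
    rw [injective_iff_map_eq_one]
    intro a ha
    have h1 : (a : X) ∈ N := by
      simpa using ha
    have h2 : (a : X) ∈ C ⊓ N := ⟨a.2, h1⟩
    rw [hCN, Subgroup.mem_bot] at h2
    exact Subtype.ext h2
  have hbij := Cfsg.Agent.S2119.result 5 (by norm_num) (by norm_num)
  let f : X →* Equiv.Perm (Fin 5) :=
    ((MulEquiv.ofBijective _ hbij).symm.toMonoidHom.comp (MulAut.congr e).toMonoidHom).comp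
      (MulAut.conjNormal : X →* MulAut N)
  have hf : Function.Injective f := by
    have h1 : Function.Injective (MulAut.conjNormal : X →* MulAut N) := by
      rw [← MonoidHom.ker_eq_bot_iff, ← hC, hCbot]
    exact ((MulEquiv.ofBijective _ hbij).symm.injective.comp (MulAut.congr e).injective).comp h1
  have hcard : Nat.card X = Nat.card (Equiv.Perm (Fin 5)) := by
    rw [hc, Nat.card_eq_fintype_card, Fintype.card_perm, Fintype.card_fin]; rfl
  have hfb : Function.Bijective f := (Nat.bijective_iff_injective_and_card f).2 ⟨hf, hcard⟩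
  exact ⟨MulEquiv.ofBijective f hfb⟩

end Cfsg.Agent.Lib.Helper70.GL42
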