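import Cfsg.Agent.Lib.Helper70.GL42.K7
import Cfsg.Agent.Lib.Helper70.GL42.L60
import Cfsg.Agent.Lib.Helper26.GL42.Q60
import Cfsg.Agent.S0494

set_option autoImplicit false

namespace Cfsg.Agent.Lib.Helper70.GL42

open MulAction Cfsg.Agent.Lib.Helper26.GL42

/-- [K56], with the order computation [S5] as a hypothesis -/
theorem case56_aux {Ω : Type*} [Fintype Ω] [DecidableEq Ω]
    (hΩ : Fintype.card Ω = 5 ∨ Fintype.card Ω = 6) (K : Subgroup (Equiv.Perm Ω))
    (hns : ¬ Group.IsSolvable K) (hN : NSN K)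
    (hS5 : ∀ K' : Subgroup (Equiv.Perm Ω), ¬ Group.IsSolvable K' →
      (Nat.card K' = 60 ∨ Nat.card K' = 120 ∨ Nat.card K' = 360 ∨ Nat.card K' = 720) ∧
      (K' ≤ alternatingGroup Ω → Nat.card K' = 60 ∨ Nat.card K' = 360)) : Concl K := by
  have hcP : Nat.card (Equiv.Perm Ω) = (Fintype.card Ω).factorial := by
    rw [Nat.card_eq_fintype_card, Fintype.card_perm]
  have hdvd : Nat.card K ∣ Nat.card (Equiv.Perm Ω) := Subgroup.card_subgroup_dvd_card K
  have h5f : (5 : ℕ).factorial = 120 := rfl
  have h6f : (6 : ℕ).factorial = 720 := rfl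
  rcases (hS5 K hns).1 with h | h | h | h
  · have hs := simple_of_card_60 h hns
    obtain ⟨e⟩ := Cfsg.Agent.S0494.result h
    exact Or.inl ⟨5, le_rfl, by norm_num, ⟨e⟩⟩
  · obtain ⟨N, hNdef⟩ : ∃ N, N = (alternatingGroup Ω).subgroupOf K := ⟨_, rfl⟩
    have hNn : N.Normal := by rw [hNdef]; infer_instance
    have hnsN : ¬ Group.IsSolvable N := by
      intro hs
      apply hns
      refine Group.isSolvable_of_ker_le_range N.subtype
        ((Equiv.Perm.sign (α := Ω)).comp K.subtype) ?_
      intro x hx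
      rw [Subgroup.range_subtype, hNdef]
      refine Subgroup.mem_subgroupOf.2 ?_
      rw [Equiv.Perm.mem_alternatingGroup]
      simpa [MonoidHom.mem_ker] using hx
    have hle : N.map K.subtype ≤ alternatingGroup Ω := by
      rintro _ ⟨x, hx, rfl⟩
      rw [hNdef] at hx
      exact Subgroup.mem_subgroupOf.1 hx
    let E : N ≃* N.map K.subtype := N.equivMapOfInjective K.subtype K.subtype_injective
    have hnsN' : ¬ Group.IsSolvable (N.map K.subtype) := fun hs =>
      hnsN (Group.isSolvable_of_isSolvable_injective (f := E.toMonoidHom) E.injective)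
    have hcN := (hS5 _ hnsN').2 hle
    rw [← Nat.card_congr E.toEquiv] at hcN
    have hdN : Nat.card N ∣ 120 := by rw [← h]; exact Subgroup.card_subgroup_dvd_card N
    have hcN60 : Nat.card N = 60 := by
      rcases hcN with h1 | h1
      · exact h1
      · rw [h1] at hdN; norm_num at hdN
    have hs := simple_of_card_60 hcN60 hnsN
    obtain ⟨e⟩ := Cfsg.Agent.S0494.result hcN60
    exact Or.inr (Or.inl (l60 h hN N e))
  · have h6 : Fintype.card Ω = 6 := by
      rcases hΩ with h1 | h1
      · rw [hcP, h1, h5f, h] at hdvd; norm_num at hdvd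
      · exact h1
    have hidx : K.index = 2 := by
      have h1 := K.card_mul_index
      rw [h, hcP, h6, h6f] at h1
      omega
    exact concl_of_eq_alt h6 (by norm_num) (by norm_num) K
      (Equiv.Perm.eq_alternatingGroup_of_index_eq_two hidx)
  · have h6 : Fintype.card Ω = 6 := by
      rcases hΩ with h1 | h1
      · rw [hcP, h1, h5f, h] at hdvd; norm_num at hdvd
      · exact h1
    have htop : K = ⊤ := by
      apply Subgroup.eq_top_of_card_eq
      rw [h, hcP, h6, h6f]
    exact Or.inr (Or.inr (Or.inl ⟨((MulEquiv.subgroupCongr htop).trans Subgroup.topEquiv).trans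
      (Fintype.equivFinOfCardEq h6).permCongrHom⟩))

end Cfsg.Agent.Lib.Helper70.GL42
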