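import Cfsg.Agent.Lib.Helper70.GL42.G3
import Cfsg.Agent.S0678
import Cfsg.Agent.S0713
import Cfsg.Agent.S0144

set_option autoImplicit false

namespace Cfsg.Agent.Lib.Helper70.GL42

open MulAction Cfsg.Agent.Lib.Helper26.GL42

theorem concl_of_eq_alt {Ω : Type*} [Fintype Ω] [DecidableEq Ω] {n : ℕ}
    (hΩ : Fintype.card Ω = n) (h5 : 5 ≤ n) (h8 : n ≤ 8) (K : Subgroup (Equiv.Perm Ω))
    (hK : K = alternatingGroup Ω) : Concl K :=
  Or.inl ⟨n, h5, h8, ⟨(MulEquiv.subgroupCongr hK).trans
    (Equiv.altCongrHom (Fintype.equivFinOfCardEq hΩ))⟩⟩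

/-- [K7] -/
theorem case7 {Ω : Type*} [Fintype Ω] [DecidableEq Ω]
    (hΩ : Fintype.card Ω = 7) (K : Subgroup (Equiv.Perm Ω)) (hA : K ≤ alternatingGroup Ω)
    [IsPretransitive K Ω] (hns : ¬ Group.IsSolvable K) : Concl K := by
  by_cases h : alternatingGroup Ω ≤ K
  · exact concl_of_eq_alt hΩ (by norm_num) (by norm_num) K (le_antisymm hA h)
  · obtain ⟨hc, hs⟩ := Cfsg.Agent.S0678.result hΩ K hns h
    exact Or.inr (Or.inr (Or.inr (simple168 hc)))

theorem card_dvd_of_pretransitive {T Ω : Type*} [Group T] [MulAction T Ω] [Finite T]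
    [IsPretransitive T Ω] [Nonempty Ω] : Nat.card Ω ∣ Nat.card T := by
  obtain ⟨a⟩ := ‹Nonempty Ω›
  have h1 := MulAction.index_stabilizer T a
  rw [MulAction.orbit_eq_univ, Set.ncard_univ] at h1
  rw [← h1]
  exact Subgroup.index_dvd_card _

/-- [K8], with the order computation [S7] as a hypothesis -/
theorem case8_aux {Ω : Type*} [Fintype Ω] [DecidableEq Ω]
    (hΩ : Fintype.card Ω = 8) (K : Subgroup (Equiv.Perm Ω)) (hA : K ≤ alternatingGroup Ω)
    [IsPreprimitive K Ω] (hN : NSN K) (h : Nat.card K ≠ 1344)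
    (hS7 : ¬ 5 ∣ Nat.card K → 8 ∣ Nat.card K → Nat.card K = 168 ∨ Nat.card K = 1344) :
    Concl K := by
  have hne : Nonempty Ω := by
    rw [← Fintype.card_pos_iff, hΩ]; norm_num
  have hcΩ : Nat.card Ω = 8 := by rw [Nat.card_eq_fintype_card, hΩ]
  have h8 : 8 ∣ Nat.card K := by
    rw [← hcΩ]; exact card_dvd_of_pretransitive
  by_cases h5 : 5 ∣ Nat.card K
  · have : Fact (Nat.Prime 5) := ⟨by norm_num⟩
    obtain ⟨g, hg⟩ := exists_prime_orderOf_dvd_card' (G := K) 5 h5
    have hg' : orderOf (g : Equiv.Perm Ω) = 5 := by rw [Subgroup.orderOf_coe, hg]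
    have hcyc : (g : Equiv.Perm Ω).IsCycle :=
      Equiv.Perm.isCycle_of_prime_order' (by rw [hg']; norm_num) (by rw [hg', hΩ]; norm_num)
    have hsupp : (g : Equiv.Perm Ω).support.card = 5 := by rw [← hcyc.orderOf, hg']
    have hle := Cfsg.Agent.S0713.result K inferInstance (p := 5) (by norm_num) (by rw [hΩ]; norm_num)
      (by rw [hΩ]) hcyc hsupp g.2
    exact concl_of_eq_alt hΩ (by norm_num) (by norm_num) K (le_antisymm hA hle)
  · have hc : Nat.card K = 168 := (hS7 h5 h8).resolve_right h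
    have hnt : Nontrivial K := by
      rw [← Finite.one_lt_card_iff_nontrivial]; omega
    have hs : IsSimpleGroup K := by
      refine ⟨fun N hNn => ?_⟩
      by_cases hb : N = ⊥
      · exact Or.inl hb
      right
      have hfix : fixedPoints N Ω ≠ Set.univ := by
        intro hfix
        apply hb
        rw [eq_bot_iff]
        intro x hx
        rw [Subgroup.mem_bot]
        apply Subtype.ext
        ext a
        have ha : a ∈ fixedPoints N Ω := by rw [hfix]; exact Set.mem_univ a
        exact ha ⟨x, hx⟩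
      have htr : IsPretransitive N Ω := IsQuasiPreprimitive.isPretransitive_of_normal hfix
      have h8N : 8 ∣ Nat.card N := by
        rw [← hcΩ]; exact card_dvd_of_pretransitive
      have hdvd : Nat.card N ∣ 168 := by rw [← hc]; exact Subgroup.card_subgroup_dvd_card N
      have hnsN : ¬ Group.IsSolvable N := fun hs => hb (hN N hNn hs)
      obtain ⟨k, hk⟩ : ∃ k, k = Nat.card N := ⟨_, rfl⟩
      rw [← hk] at h8N hdvd
      have hk168 : k = 168 := by
        have hle : k ≤ 168 := Nat.le_of_dvd (by norm_num) hdvd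
        obtain ⟨j, rfl⟩ := h8N
        have hj : j ∣ 21 := by
          have : 8 * j ∣ 8 * 21 := by simpa using hdvd
          exact Nat.dvd_of_mul_dvd_mul_left (by norm_num) this
        have hj' : j = 1 ∨ j = 3 ∨ j = 7 ∨ j = 21 := by
          have hle' : j ≤ 21 := Nat.le_of_dvd (by norm_num) hj
          clear hdvd hk hle
          revert hj
          interval_cases j <;> decide
        rcases hj' with rfl | rfl | rfl | rfl
        · exact absurd (Cfsg.Agent.S0144.result 2 3 3 0 Nat.prime_two Nat.prime_three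
            (by rw [← hk]; norm_num)) hnsN
        · exact absurd (Cfsg.Agent.S0144.result 2 3 3 1 Nat.prime_two Nat.prime_three
            (by rw [← hk]; norm_num)) hnsN
        · exact absurd (Cfsg.Agent.S0144.result 2 7 3 1 Nat.prime_two (by norm_num)
            (by rw [← hk]; norm_num)) hnsN
        · rfl
      apply Subgroup.eq_top_of_card_eq
      rw [← hk, hk168, hc]
    exact Or.inr (Or.inr (Or.inr (simple168 hc)))

end Cfsg.Agent.Lib.Helper70.GL42
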